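import Cfsg.Agent.J4Pentad49.MainOf
import Cfsg.Agent.J4Pentad49.Cent

/-!
The conclusion on the pentad 2-local, given the subgroup `L₃(2)`.
-/

set_option autoImplicit false

universe u

namespace CfsgLib.J4Pentad

variable {G : Type u} [Group G] [Finite G] (d : Pentad G)

theorem Pentad.main_of_sl32 (hK : ∃ K₂ : Subgroup G, K₂ ≤ Subgroup.normalizer (d.L : Set G) ∧
      Nonempty (↥K₂ ≃* Matrix.SpecialLinearGroup (Fin 3) (ZMod 2))) :
    ∃ L : Subgroup G, Cfsg.IsSpecial 2 ↥L ∧ Nat.card ↥L = 2 ^ 15 ∧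
      Nat.card ↥(Subgroup.center ↥L) = 8 ∧
      Nonempty (↥(Subgroup.normalizer (L : Set G)) ⧸
          L.subgroupOf (Subgroup.normalizer (L : Set G)) ≃*
        Equiv.Perm (Fin 5) × Matrix.SpecialLinearGroup (Fin 3) (ZMod 2)) ∧
      (∀ K : Subgroup ↥(Subgroup.normalizer (L : Set G)),
        ¬ (L.subgroupOf (Subgroup.normalizer (L : Set G))).IsComplement' K) ∧
      (∃ K₁ : Subgroup G, K₁ ≤ Subgroup.normalizer (L : Set G) ∧
        Nonempty (↥K₁ ≃* Equiv.Perm (Fin 5))) ∧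
      (∃ K₂ : Subgroup G, K₂ ≤ Subgroup.normalizer (L : Set G) ∧
        Nonempty (↥K₂ ≃* Matrix.SpecialLinearGroup (Fin 3) (ZMod 2))) ∧
      (∃ Q : Sylow 5 G, Subgroup.normalizer ((Q : Subgroup G) : Set G) ≤
        Subgroup.normalizer (L : Set G)) ∧
      (∃ S : Sylow 7 G, Subgroup.normalizer ((S : Subgroup G) : Set G) ≤
        Subgroup.normalizer (L : Set G)) :=
  d.main_of d.I_le d.L_inf_I d.L_sup_I d.card_normalizer d.exists_sylow hK

end CfsgLib.J4Pentad
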