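import Cfsg.Agent.J4Pentad49.Lgroup
import Cfsg.Agent.J4Pentad49.Odd
import Cfsg.Agent.J4Pentad.End
import Cfsg.Agent.M12Type.NoSimple

/-!
The conclusion on the pentad 2-local from the facts on the centraliser of `E`.
-/

set_option autoImplicit false

universe u

namespace CfsgLib.J4Pentad

variable {G : Type u} [Group G] [Finite G] (d : Pentad G)

omit [Finite G] in
theorem Pentad.card_sup_of_inf_eq_bot {A B : Subgroup G}
    (hB : B ≤ Subgroup.normalizer (A : Set G)) (h : A ⊓ B = ⊥) :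
    Nat.card ↥(A ⊔ B) = Nat.card ↥A * Nat.card ↥B := by
  rw [← Nat.card_prod]
  refine (Nat.card_congr (Equiv.ofBijective
    (fun x : ↥A × ↥B => (⟨(x.1 : G) * x.2,
      mul_mem (Subgroup.mem_sup_left x.1.2) (Subgroup.mem_sup_right x.2.2)⟩ : ↥(A ⊔ B))) ?_)).symm
  refine ⟨?_, fun y => ?_⟩
  · rintro ⟨a, b⟩ ⟨a', b'⟩ he
    have he' : (a : G) * b = a' * b' := congrArg Subtype.val he
    have h2 : (a' : G)⁻¹ * a = b' * (b : G)⁻¹ := by
      rw [eq_mul_inv_iff_mul_eq, mul_assoc, he', ← mul_assoc, inv_mul_cancel, one_mul]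
    have h1 : (a' : G)⁻¹ * a ∈ A ⊓ B :=
      ⟨A.mul_mem (A.inv_mem a'.2) a.2, h2 ▸ B.mul_mem b'.2 (B.inv_mem b.2)⟩
    rw [h, Subgroup.mem_bot] at h1
    have ha : a = a' := Subtype.ext (inv_mul_eq_one.1 h1).symm
    subst ha
    rw [Subtype.ext (mul_left_cancel he')]
  · have hy : (y : G) ∈ (↑(A ⊔ B) : Set G) := y.2
    rw [Subgroup.coe_mul_of_right_le_normalizer_left A B hB] at hy
    obtain ⟨a, ha, b, hb, hab⟩ := Set.mem_mul.1 hy
    exact ⟨(⟨a, ha⟩, ⟨b, hb⟩), Subtype.ext hab⟩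

/-- The quotient by `C(E)` of the normaliser is `SL₃(2)`. -/
theorem Pentad.nonempty_top_quotient (hI : d.I ≤ Subgroup.centralizer (d.E : Set G))
    (hinf : d.L ⊓ d.I = ⊥) (hsup : d.L ⊔ d.I = Subgroup.centralizer (d.E : Set G))
    (hcard : Nat.card ↥(Subgroup.normalizer (d.E : Set G)) = 2 ^ 15 * 120 * 168)
    {N : Subgroup G} (hN : N = Subgroup.normalizer (d.E : Set G))
    [((Subgroup.centralizer (d.E : Set G)).subgroupOf N).Normal] :
    Nonempty (↥N ⧸ (Subgroup.centralizer (d.E : Set G)).subgroupOf N ≃* SL32) := by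
  haveI hnE : (d.E.subgroupOf N).Normal :=
    Subgroup.normal_subgroupOf_of_le_normalizer hN.le
  have hEN : d.E ≤ N := hN ▸ Subgroup.le_normalizer
  have h8 : Nat.card ↥(d.E.subgroupOf N) = 8 := by
    rw [Nat.card_congr (Subgroup.subgroupOfEquivOfLe hEN).toEquiv, d.cardE]
  obtain ⟨φ, hφ⟩ := CfsgLib.M12Type.exists_hom_sl32 (W := ↥(d.E.subgroupOf N))
    (fun w => Subtype.ext (Subtype.ext (d.sqE _ w.2))) h8
  let ψ : ↥N →* CfsgLib.SmallRadical.SL32 := φ.comp MulAut.conjNormal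
  have hCN : Subgroup.centralizer (d.E : Set G) ≤ N := hN ▸ fun c hc =>
    Subgroup.mem_normalizer_fintype (S := (d.E : Set G)) fun e he => by
      rwa [← Subgroup.mem_centralizer_iff.1 hc e he, mul_inv_cancel_right]
  have hker : ψ.ker = (Subgroup.centralizer (d.E : Set G)).subgroupOf N := by
    ext y
    rw [MonoidHom.mem_ker, MonoidHom.comp_apply, ← map_one φ, hφ.eq_iff, Subgroup.mem_subgroupOf,
      Subgroup.mem_centralizer_iff]
    constructor
    · intro hy e he
      have := congrArg (fun σ : MulAut ↥(d.E.subgroupOf N) =>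
        ((σ ⟨⟨e, hEN he⟩, he⟩ : ↥N) : G)) hy
      simp only [MulAut.conjNormal_apply, MulAut.one_apply, Subgroup.coe_mul,
        Subgroup.coe_inv] at this
      exact (mul_inv_eq_iff_eq_mul.1 this).symm
    · intro hy
      refine MulEquiv.ext fun n => Subtype.ext (Subtype.ext ?_)
      rw [MulAut.conjNormal_apply, MulAut.one_apply]
      simp only [Subgroup.coe_mul, Subgroup.coe_inv]
      exact mul_inv_eq_iff_eq_mul.2 (hy _ n.2).symm
  have hcardC : Nat.card ↥((Subgroup.centralizer (d.E : Set G)).subgroupOf N) = 2 ^ 15 * 120 := by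
    obtain ⟨e⟩ := d.eI
    rw [Nat.card_congr (Subgroup.subgroupOfEquivOfLe hCN).toEquiv, ← hsup,
      Pentad.card_sup_of_inf_eq_bot ((hI.trans (hCN.trans hN.le)).trans d.normalizer_le_L) hinf,
      d.card_L, Nat.card_congr e.toEquiv, Nat.card_perm, Nat.card_eq_fintype_card,
      Fintype.card_fin]
    rfl
  have hidx : ((Subgroup.centralizer (d.E : Set G)).subgroupOf N).index = 168 := by
    have h1 := ((Subgroup.centralizer (d.E : Set G)).subgroupOf N).card_mul_index
    rw [hcardC] at h1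
    have h2 : Nat.card ↥N = 2 ^ 15 * 120 * 168 := by rw [hN, hcard]
    rw [h2] at h1
    exact Nat.eq_of_mul_eq_mul_left (by norm_num) h1
  have hsurj : Function.Surjective ψ := by
    rw [← MonoidHom.range_eq_top]
    apply Subgroup.eq_top_of_card_eq
    rw [CfsgLib.SmallRadical.card_sl32, ← Subgroup.index_ker, hker, hidx]
  exact ⟨(QuotientGroup.quotientMulEquivOfEq hker.symm).trans
    (QuotientGroup.quotientKerEquivOfSurjective ψ hsurj)⟩

/-- The quotient of the 2-local, and the absence of a complement. -/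
theorem Pentad.quotient_and_noCompl (hI : d.I ≤ Subgroup.centralizer (d.E : Set G))
    (hinf : d.L ⊓ d.I = ⊥) (hsup : d.L ⊔ d.I = Subgroup.centralizer (d.E : Set G))
    (hcard : Nat.card ↥(Subgroup.normalizer (d.E : Set G)) = 2 ^ 15 * 120 * 168) :
    Nonempty (↥(Subgroup.normalizer (d.L : Set G)) ⧸
        d.L.subgroupOf (Subgroup.normalizer (d.L : Set G)) ≃*
      Equiv.Perm (Fin 5) × Matrix.SpecialLinearGroup (Fin 3) (ZMod 2)) ∧
    ∀ K : Subgroup ↥(Subgroup.normalizer (d.L : Set G)),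
      ¬ (d.L.subgroupOf (Subgroup.normalizer (d.L : Set G))).IsComplement' K := by
  set N := Subgroup.normalizer (d.L : Set G) with hNdef
  have hN : N = Subgroup.normalizer (d.E : Set G) :=
    le_antisymm d.normalizer_L_le d.normalizer_le_L
  haveI hnL : (d.L.subgroupOf N).Normal := Subgroup.normal_subgroupOf_of_le_normalizer le_rfl
  haveI hnC : ((Subgroup.centralizer (d.E : Set G)).subgroupOf N).Normal :=
    Subgroup.normal_subgroupOf_of_le_normalizer (hN.le.trans d.normalizer_le_normalizer_centE)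
  have hLN : d.L ≤ N := Subgroup.le_normalizer
  have hCN : Subgroup.centralizer (d.E : Set G) ≤ N := hN ▸ fun c hc =>
    Subgroup.mem_normalizer_fintype (S := (d.E : Set G)) fun e he => by
      rwa [← Subgroup.mem_centralizer_iff.1 hc e he, mul_inv_cancel_right]
  have hsN : d.s ∈ N := hN ▸ d.JE d.sJ
  have hIs : d.I ≤ Subgroup.centralizer ({d.s} : Set G) := d.cs.symm ▸ le_sup_left
  obtain ⟨e⟩ := d.eI
  have hiso : Nonempty (↥N ⧸ d.L.subgroupOf N ≃* S5 × SL32) := by
    refine nonempty_quotient_prod_of_le (d.L.subgroupOf N)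
      ((Subgroup.centralizer (d.E : Set G)).subgroupOf N) (d.I.subgroupOf N) ?_ ?_
      ⟨(Subgroup.subgroupOfEquivOfLe (hI.trans hCN)).trans e⟩
      (d.nonempty_top_quotient hI hinf hsup hcard hN) (s := ⟨d.s, hsN⟩) d.s_notMem
      fun i hi => Subtype.ext (Subgroup.mem_centralizer_singleton_iff.1 (hIs hi)).symm
    · rw [← Subgroup.subgroupOf_sup hLN (hI.trans hCN), hsup]
    · rw [eq_bot_iff]
      rintro x ⟨hxL, hxI⟩
      have : (x : G) ∈ d.L ⊓ d.I := ⟨hxL, hxI⟩
      rw [hinf, Subgroup.mem_bot] at this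
      exact Subgroup.mem_bot.2 (Subtype.ext this)
  refine ⟨hiso, not_isComplement_subgroupOf d.L N hiso ?_⟩
  have hcomm : ∀ a ∈ Subgroup.zpowers d.q, ∀ b ∈ d.J, a * b = b * a := by
    rintro a ⟨k, rfl⟩ b hb
    exact ((d.commute_q_J hb).zpow_right k).eq.symm
  have hCq : Subgroup.centralizer (Subgroup.zpowers d.q : Set G) = d.J ⊔ Subgroup.zpowers d.q := by
    rw [← d.cq]
    ext x
    rw [Subgroup.mem_centralizer_singleton_iff, Subgroup.mem_centralizer_iff]
    refine ⟨fun h => (h d.q (Subgroup.mem_zpowers _)).symm, fun h y hy => ?_⟩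
    obtain ⟨k, rfl⟩ := hy
    exact ((show Commute x d.q from h).zpow_right k).eq.symm
  haveI hnEJ : (d.E.subgroupOf d.J).Normal := Subgroup.normal_subgroupOf_of_le_normalizer d.JE
  refine no_sl32_of_five d.five (Q := Subgroup.zpowers d.q) (J := d.J)
    (by rw [Nat.card_zpowers, d.hq])
    ⟨hCq.symm ▸ le_sup_right, hCq.symm ▸ le_sup_left, hcomm,
      by rw [inf_comm]; exact d.Jq, by rw [hCq, sup_comm]⟩
    (d.E.subgroupOf d.J) ⟨⟨⟨fun a b => Subtype.ext (Subtype.ext (d.E_comm a.1.1 a.2 b.1.1 b.2))⟩⟩,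
      fun a ha => Subtype.ext (by rw [Subgroup.coe_pow, pow_two]; exact d.sqE _ ha)⟩ ?_ ?_
  · -- `J / E` is `SL₃(2)`
    obtain ⟨φ, hφ⟩ := CfsgLib.M12Type.exists_hom_sl32 (W := ↥(d.E.subgroupOf d.J))
      (fun w => Subtype.ext (Subtype.ext (d.sqE _ w.2)))
      (by rw [Nat.card_congr (Subgroup.subgroupOfEquivOfLe d.EJ).toEquiv, d.cardE])
    let ψ : ↥d.J →* CfsgLib.SmallRadical.SL32 := φ.comp MulAut.conjNormal
    have hker : ψ.ker = d.E.subgroupOf d.J := by
      ext y
      rw [MonoidHom.mem_ker, MonoidHom.comp_apply, ← map_one φ, hφ.eq_iff, Subgroup.mem_subgroupOf]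
      constructor
      · intro hy
        rw [← d.centJ]
        refine ⟨y.2, Subgroup.mem_centralizer_iff.2 fun n hn => ?_⟩
        have := congrArg (fun σ : MulAut ↥(d.E.subgroupOf d.J) =>
          ((σ ⟨⟨n, d.EJ hn⟩, hn⟩ : ↥d.J) : G)) hy
        simp only [MulAut.conjNormal_apply, MulAut.one_apply, Subgroup.coe_mul,
          Subgroup.coe_inv] at this
        exact (mul_inv_eq_iff_eq_mul.1 this).symm
      · intro hy
        refine MulEquiv.ext fun n => Subtype.ext (Subtype.ext ?_)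
        rw [MulAut.conjNormal_apply, MulAut.one_apply]
        simp only [Subgroup.coe_mul, Subgroup.coe_inv]
        exact mul_inv_eq_iff_eq_mul.2 (d.E_comm _ hy _ n.2)
    have hsurj : Function.Surjective ψ := by
      rw [← MonoidHom.range_eq_top]
      apply Subgroup.eq_top_of_card_eq
      have h1 := (d.E.subgroupOf d.J).card_mul_index
      rw [Nat.card_congr (Subgroup.subgroupOfEquivOfLe d.EJ).toEquiv, d.cardE, d.cardJ] at h1
      rw [CfsgLib.SmallRadical.card_sl32, ← Subgroup.index_ker, hker]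
      omega
    exact ⟨(QuotientGroup.quotientMulEquivOfEq hker.symm).trans
      (QuotientGroup.quotientKerEquivOfSurjective ψ hsurj)⟩
  · intro K hK
    refine d.noCompl (K.map d.J.subtype) (Subgroup.map_subtype_le _) ?_ ?_
    · rw [eq_bot_iff]
      rintro _ ⟨⟨x, hx, rfl⟩, hxE⟩
      have h : x ∈ d.E.subgroupOf d.J ⊓ K := ⟨hxE, hx⟩
      rw [hK.disjoint.eq_bot, Subgroup.mem_bot] at h
      simp [h]
    · rw [← Subgroup.map_subgroupOf_eq_of_le d.EJ, ← Subgroup.map_sup, sup_comm, hK.sup_eq_top,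
        ← MonoidHom.range_eq_map, Subgroup.range_subtype]

end CfsgLib.J4Pentad

namespace CfsgLib.J4Pentad

variable {G : Type u} [Group G] [Finite G] (d : Pentad G)

/-- All conclusions on `L`, from the facts on `C(E)`, the Sylow normalisers and the `L₃(2)`. -/
theorem Pentad.main_of (hI : d.I ≤ Subgroup.centralizer (d.E : Set G))
    (hinf : d.L ⊓ d.I = ⊥) (hsup : d.L ⊔ d.I = Subgroup.centralizer (d.E : Set G))
    (hcard : Nat.card ↥(Subgroup.normalizer (d.E : Set G)) = 2 ^ 15 * 120 * 168)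
    (hsyl : (∃ Q : Sylow 5 G, Subgroup.normalizer ((Q : Subgroup G) : Set G) ≤
        Subgroup.normalizer (d.L : Set G)) ∧
      (∃ S : Sylow 7 G, Subgroup.normalizer ((S : Subgroup G) : Set G) ≤
        Subgroup.normalizer (d.L : Set G)))
    (hK : ∃ K₂ : Subgroup G, K₂ ≤ Subgroup.normalizer (d.L : Set G) ∧
      Nonempty (↥K₂ ≃* Matrix.SpecialLinearGroup (Fin 3) (ZMod 2))) :
    ∃ L : Subgroup G, Cfsg.IsSpecial 2 ↥L ∧ Nat.card ↥L = 2 ^ 15 ∧
      Nat.card ↥(Subgroup.center ↥L) = 8 ∧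
      Nonempty (↥(Subgroup.normalizer (L : Set G)) ⧸
          L.subgroupOf (Subgroup.normalizer (L : Set G)) ≃*
        Equiv.Perm (Fin 5) × Matrix.SpecialLinearGroup (Fin 3) (ZMod 2)) ∧
      (∀ K : Subgroup ↥(Subgroup.normalizer (L : Set G)),
        ¬ (L.subgroupOf (Subgroup.normalizer (L : Set G))).IsComplement' K) ∧
      (∃ K₁ : Subgroup G, K₁ ≤ Subgroup.normalizer (L : Set G) ∧
        Nonempty (↥K₁ ≃* Equiv.Perm (Fin 5))) ∧
      (∃ K₂ : Subgroup G, K₂ ≤ Subgroup.normalizer (L : Set G) ∧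
        Nonempty (↥K₂ ≃* Matrix.SpecialLinearGroup (Fin 3) (ZMod 2))) ∧
      (∃ Q : Sylow 5 G, Subgroup.normalizer ((Q : Subgroup G) : Set G) ≤
        Subgroup.normalizer (L : Set G)) ∧
      (∃ S : Sylow 7 G, Subgroup.normalizer ((S : Subgroup G) : Set G) ≤
        Subgroup.normalizer (L : Set G)) := by
  obtain ⟨hiso, hno⟩ := d.quotient_and_noCompl hI hinf hsup hcard
  refine ⟨d.L, d.special_L, d.card_L, d.card_center_L, hiso, hno, ⟨d.I, ?_, d.eI⟩, hK, hsyl.1,
    hsyl.2⟩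
  refine le_trans ?_ d.normalizer_le_L
  intro c hc
  refine Subgroup.mem_normalizer_fintype (S := (d.E : Set G)) fun e he => ?_
  rwa [← Subgroup.mem_centralizer_iff.1 (hI hc) e he, mul_inv_cancel_right]

end CfsgLib.J4Pentad
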